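import Cfsg.Agent.H380.Bs.Small
import Cfsg.Agent.H160.QDisc
import Cfsg.Agent.H989.Fx.OmE

/-!
# S5719, orthogonal groups, `q` odd: involutions of `E Q` (helper325)

`Vm g`, `Vp g` : the spaces where `g` is `-1`, `1`. For `g ∈ E Q`, `g * g = 1`:
* `isCompl`, `polar_Vm_Vp`, `mem_Vp_iff`, `mem_Vm_iff` : orthogonal decomposition;
* `even_Vm`, `dc_Vm` : `Vm g` has even dimension and square discriminant;
* `fund_of_finrank` : dimension `4`: `g` is a fundamental involution.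
-/

set_option autoImplicit false
set_option linter.unusedSectionVars false

namespace Cfsg.Agent.H325.IF

open QuadraticMap Module Cfsg.Agent.LieClassical.OrthCore Cfsg.Agent.LieClassical.OrthTrans
open Cfsg.Agent.H989.Gs.Gen Cfsg.Agent.H989.Fx
open Cfsg.Agent.H160.QSpin Cfsg.Agent.H160.QDisc
open Cfsg.Agent.UGT.U2.FOne.Orth (Four)

variable {F V : Type*} [Field F] [AddCommGroup V] [Module F V] {Q : QuadraticForm F V}

/-- the space where `g` is `-1` -/
def Vm (g : ↥(E Q)) : Submodule F V := LinearMap.ker ((g.1 : V →ₗ[F] V) + LinearMap.id)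

/-- the space where `g` is `1` -/
def Vp (g : ↥(E Q)) : Submodule F V := LinearMap.ker ((g.1 : V →ₗ[F] V) - LinearMap.id)

theorem mem_Vm {g : ↥(E Q)} {v : V} : v ∈ Vm g ↔ ap g v = -v := by
  rw [Vm, LinearMap.mem_ker, LinearMap.add_apply, LinearMap.id_apply]
  exact add_eq_zero_iff_eq_neg

theorem mem_Vp {g : ↥(E Q)} {v : V} : v ∈ Vp g ↔ ap g v = v := by
  rw [Vp, LinearMap.mem_ker, LinearMap.sub_apply, LinearMap.id_apply]
  exact sub_eq_zero

section

variable (h2 : (2 : F) ≠ 0) {g : ↥(E Q)}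

include h2

theorem disj_Vm_Vp : Disjoint (Vm g) (Vp g) := by
  rw [Submodule.disjoint_def]
  intro v hv hv'
  rw [mem_Vm] at hv
  rw [mem_Vp] at hv'
  have h3 : (2 : F) • v = 0 := by rw [two_smul]; nth_rewrite 1 [← hv']; rw [hv]; exact neg_add_cancel v
  exact (smul_eq_zero.1 h3).resolve_left h2

theorem isCompl (hg : g * g = 1) : IsCompl (Vm g) (Vp g) := by
  refine ⟨disj_Vm_Vp h2, ?_⟩
  rw [codisjoint_iff, eq_top_iff]
  intro v _
  have hgg : ∀ v, ap g (ap g v) = v := fun v => by rw [← ap_mul, hg, ap_one]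
  rw [Submodule.mem_sup]
  refine ⟨(2 : F)⁻¹ • (v - ap g v), mem_Vm.2 ?_, (2 : F)⁻¹ • (v + ap g v), mem_Vp.2 ?_, ?_⟩
  · rw [ap_smul, ap_sub, hgg, ← smul_neg, neg_sub]
  · rw [ap_smul, ap_add, hgg, add_comm]
  · rw [← smul_add, sub_add_add_cancel, ← two_smul F, smul_smul, inv_mul_cancel₀ h2, one_smul]

theorem polar_Vm_Vp {u w : V} (hu : u ∈ Vm g) (hw : w ∈ Vp g) : polar Q u w = 0 := by
  rw [mem_Vm] at hu
  rw [mem_Vp] at hw
  have h3 : polar Q u w = - polar Q u w := by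
    conv_lhs => rw [← polar_ap g, hu, hw, polar_neg_left]
  have h4 : (2 : F) * polar Q u w = 0 := by rw [two_mul]; nth_rewrite 1 [h3]; exact neg_add_cancel _
  exact (mul_eq_zero.1 h4).resolve_left h2

variable (hQ : Nondeg Q)

include hQ

theorem mem_Vp_iff (hg : g * g = 1) {v : V} : v ∈ Vp g ↔ ∀ u ∈ Vm g, polar Q u v = 0 := by
  refine ⟨fun h u hu => polar_Vm_Vp h2 hu h, fun h => ?_⟩
  obtain ⟨a, ha, b, hb, rfl⟩ := Submodule.mem_sup.1 (((isCompl h2 hg).codisjoint.eq_top).symm ▸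
    Submodule.mem_top : v ∈ Vm g ⊔ Vp g)
  have h3 : a = 0 := by
    apply hQ
    intro y
    obtain ⟨c, hc, d, hd, rfl⟩ := Submodule.mem_sup.1 (((isCompl h2 hg).codisjoint.eq_top).symm ▸
      Submodule.mem_top : y ∈ Vm g ⊔ Vp g)
    have h4 := h c hc
    rw [polar_add_right, polar_Vm_Vp h2 hc hb, add_zero] at h4
    rw [polar_add_right, polar_Vm_Vp h2 ha hd, add_zero, polar_comm, h4]
  rw [h3, zero_add]
  exact hb

theorem mem_Vm_iff (hg : g * g = 1) {v : V} : v ∈ Vm g ↔ ∀ w ∈ Vp g, polar Q w v = 0 := by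
  refine ⟨fun h w hw => by rw [polar_comm]; exact polar_Vm_Vp h2 h hw, fun h => ?_⟩
  obtain ⟨a, ha, b, hb, rfl⟩ := Submodule.mem_sup.1 (((isCompl h2 hg).codisjoint.eq_top).symm ▸
    Submodule.mem_top : v ∈ Vm g ⊔ Vp g)
  have h3 : b = 0 := by
    apply hQ
    intro y
    obtain ⟨c, hc, d, hd, rfl⟩ := Submodule.mem_sup.1 (((isCompl h2 hg).codisjoint.eq_top).symm ▸
      Submodule.mem_top : y ∈ Vm g ⊔ Vp g)
    have h4 := h d hd
    rw [polar_add_right, polar_comm Q d a, polar_Vm_Vp h2 ha hd, zero_add] at h4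
    rw [polar_add_right, polar_comm Q b c, polar_Vm_Vp h2 hc hb, zero_add, polar_comm, h4]
  rw [h3, add_zero]
  exact ha

/-- the restriction to `Vm g` is nondegenerate -/
theorem nondeg_Vm (hg : g * g = 1) : Nondeg (Q.comp (Vm g).subtype) := by
  intro x hx
  apply Subtype.ext
  apply hQ
  intro y
  obtain ⟨c, hc, d, hd, rfl⟩ := Submodule.mem_sup.1 (((isCompl h2 hg).codisjoint.eq_top).symm ▸
    Submodule.mem_top : y ∈ Vm g ⊔ Vp g)
  rw [polar_add_right, polar_Vm_Vp h2 x.2 hd, add_zero]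
  exact hx ⟨c, hc⟩

/-- the restriction to `Vp g` is nondegenerate -/
theorem nondeg_Vp (hg : g * g = 1) : Nondeg (Q.comp (Vp g).subtype) := by
  intro x hx
  apply Subtype.ext
  apply hQ
  intro y
  obtain ⟨c, hc, d, hd, rfl⟩ := Submodule.mem_sup.1 (((isCompl h2 hg).codisjoint.eq_top).symm ▸
    Submodule.mem_top : y ∈ Vm g ⊔ Vp g)
  rw [polar_add_right, polar_comm, polar_Vm_Vp h2 hc x.2, zero_add]
  exact hx ⟨d, hd⟩

end

section dec

variable (h2 : (2 : F) ≠ 0) {g : ↥(E Q)} (hg : g * g = 1)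

/-- the decomposition as an isometry -/
noncomputable def dec : (Vm g × Vp g) ≃ₗ[F] V := Submodule.prodEquivOfIsCompl (Vm g) (Vp g) (isCompl h2 hg)

theorem dec_apply (x : Vm g × Vp g) : dec h2 hg x = (x.1 : V) + x.2 := by
  rw [dec, Submodule.coe_prodEquivOfIsCompl']

theorem isIso_dec : IsIso ((Q.comp (Vm g).subtype).prod (Q.comp (Vp g).subtype)) Q (dec h2 hg) := by
  intro x
  rw [dec_apply, Q_add, polar_Vm_Vp h2 x.1.2 x.2.2, add_zero]
  rfl

theorem cj_dec : cj (dec h2 hg) (pr (LinearEquiv.neg F) 1) = (g : V ≃ₗ[F] V) := by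
  ext v
  obtain ⟨x, rfl⟩ := (dec h2 hg).surjective v
  rw [cj_apply', pr_apply, dec_apply, dec_apply]
  have h3 : (g : V ≃ₗ[F] V) ((x.1 : V) + x.2) = ap g x.1 + ap g x.2 := ap_add g _ _
  rw [h3, mem_Vm.1 x.1.2, mem_Vp.1 x.2.2]
  rfl

end dec

section finite

variable [Finite F] [FiniteDimensional F V] (h2 : (2 : F) ≠ 0) {g : ↥(E Q)} (hg : g * g = 1)

include h2 hg

theorem even_Vm (hG : Good Q) : Even (finrank F (Vm g)) := by
  have hfin : Finite V := Module.finite_of_finite F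
  have h3 := ((Cfsg.Agent.H380.Bs.mem_E_iff' hG h2 (E_le_O g.2)).1 g.2).1
  rw [← cj_dec h2 hg, det_cj, det_pr, map_one, mul_one] at h3
  have h4 : LinearMap.det ((LinearEquiv.neg F : Vm g ≃ₗ[F] Vm g) : Vm g →ₗ[F] Vm g) = 1 := by
    rw [← LinearEquiv.coe_det, h3, Units.val_one]
  have h5 : ((LinearEquiv.neg F : Vm g ≃ₗ[F] Vm g) : Vm g →ₗ[F] Vm g) = (-1 : F) • LinearMap.id := by
    ext x
    simp
  rw [h5, LinearMap.det_smul, LinearMap.det_id, mul_one] at h4
  by_contra hc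
  rw [Nat.not_even_iff_odd] at hc
  rw [hc.neg_one_pow] at h4
  apply h2
  linear_combination -h4

theorem dc_Vm [Fintype F] [DecidableEq F] (hG : Good Q) : dc (Q.comp (Vm g).subtype) = 1 := by
  have hfin : Finite V := Module.finite_of_finite F
  have hfin2 : Finite (Vm g × Vp g) := Finite.of_equiv V (dec h2 hg).symm.toEquiv
  have h3 := ((Cfsg.Agent.H380.Bs.mem_E_iff' hG h2 (E_le_O g.2)).1 g.2).2
  have n1 := nondeg_Vm h2 hG.nondeg hg
  have n2 := nondeg_Vp h2 hG.nondeg hg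
  have h4 := spin_cj (isIso_dec h2 hg) (pr_mem_O (neg_mem_O (Q.comp (Vm g).subtype))
    (O (Q.comp (Vp g).subtype)).one_mem)
  have h5 : (⟨cj (dec h2 hg) (pr (LinearEquiv.neg F) 1), cj_mem_O (isIso_dec h2 hg)
      (pr_mem_O (neg_mem_O (Q.comp (Vm g).subtype)) (O (Q.comp (Vp g).subtype)).one_mem)⟩ : O Q) =
      ⟨g, E_le_O g.2⟩ := Subtype.ext (cj_dec h2 hg)
  rw [h5, h3, spin_pr h2 n1 n2 (neg_mem_O _) (O (Q.comp (Vp g).subtype)).one_mem] at h4
  have h6 : spin (Q.comp (Vp g).subtype) ⟨1, (O (Q.comp (Vp g).subtype)).one_mem⟩ = 1 := map_one _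
  rw [h6, mul_one] at h4
  rw [← spin_neg_one h2 n1 (even_Vm h2 hg hG), ← h4]
  rfl

theorem dc_Vp [Fintype F] [DecidableEq F] (hG : Good Q) : dc (Q.comp (Vp g).subtype) = dc Q := by
  rw [dc_iso (isIso_dec h2 hg), dc_prod, dc_Vm h2 hg hG, one_mul]

end finite

/-! ### Hyperbolic planes and spaces of plus type of dimension four -/

section planes

variable (F)

/-- the hyperbolic plane -/
noncomputable def hp : QuadraticForm F (F × F) := QuadraticMap.linMulLin (LinearMap.fst F F F) (LinearMap.snd F F F)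

variable {F}

theorem hp_apply (x : F × F) : hp F x = x.1 * x.2 := rfl

theorem polar_hp (x y : F × F) : polar (hp F) x y = x.1 * y.2 + y.1 * x.2 := by
  simp only [polar, hp_apply, Prod.fst_add, Prod.snd_add]
  ring

theorem nondeg_hp : Nondeg (hp F) := by
  intro x hx
  have h1 := hx (0, 1)
  have h2 := hx (1, 0)
  rw [polar_hp] at h1 h2
  simp only [mul_one, zero_mul, add_zero, mul_zero, one_mul, zero_add] at h1 h2
  exact Prod.ext h1 h2

theorem dc_hp [Fintype F] [DecidableEq F] : dc (hp F) = quadraticChar F (-1) := by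
  rw [dc_eq (Basis.finTwoProd F)]
  congr 1
  rw [Matrix.det_fin_two]
  simp only [LinearMap.BilinForm.toMatrix_apply, Basis.finTwoProd_zero, Basis.finTwoProd_one]
  change polar (hp F) _ _ * polar (hp F) _ _ - polar (hp F) _ _ * polar (hp F) _ _ = _
  simp only [polar_hp]
  ring

theorem dc_hp_hp [Fintype F] [DecidableEq F] : dc ((hp F).prod (hp F)) = 1 := by
  rw [dc_prod, dc_hp, ← map_mul, neg_one_mul, neg_neg, map_one]

end planes

section four

variable [Finite F] [FiniteDimensional F V] (h2 : (2 : F) ≠ 0)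

include h2

/-- a nondegenerate subspace of dimension four and square discriminant contains two orthogonal hyperbolic pairs -/
theorem exists_four [Fintype F] [DecidableEq F] {U : Submodule F V} (hU : Nondeg (Q.comp U.subtype))
    (hd : finrank F U = 4) (hc : dc (Q.comp U.subtype) = 1) : ∃ e₁ f₁ e₂ f₂ : V, Four Q e₁ f₁ e₂ f₂ ∧
      e₁ ∈ U ∧ f₁ ∈ U ∧ e₂ ∈ U ∧ f₂ ∈ U ∧
      ∀ v, polar Q e₁ v = 0 → polar Q f₁ v = 0 → polar Q e₂ v = 0 → polar Q f₂ v = 0 → ∀ u ∈ U, polar Q u v = 0 := by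
  obtain ⟨e, he⟩ := exists_iso h2 (nondeg_prod (nondeg_hp (F := F)) nondeg_hp) hU (by simp [hd])
    (by rw [dc_hp_hp, hc])
  have hQ : ∀ x, Q (e x : V) = x.1.1 * x.1.2 + x.2.1 * x.2.2 := fun x => he x
  have hP : ∀ x y, polar Q (e x : V) (e y : V) = (x.1.1 * y.1.2 + y.1.1 * x.1.2) +
      (x.2.1 * y.2.2 + y.2.1 * x.2.2) := by
    intro x y
    have h3 := he.polar x y
    have h4 : polar ((hp F).prod (hp F)) x y = polar (hp F) x.1 y.1 + polar (hp F) x.2 y.2 := polar_pr x y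
    rw [h4, polar_hp, polar_hp] at h3
    exact h3
  refine ⟨e ((1, 0), (0, 0)), e ((0, 1), (0, 0)), e ((0, 0), (1, 0)), e ((0, 0), (0, 1)),
    ⟨⟨?_, ?_, ?_⟩, ⟨?_, ?_, ?_⟩, ?_, ?_, ?_, ?_⟩, Subtype.prop _, Subtype.prop _, Subtype.prop _, Subtype.prop _, ?_⟩
  · rw [hQ]; simp
  · rw [hQ]; simp
  · rw [hP]; simp
  · rw [hQ]; simp
  · rw [hQ]; simp
  · rw [hP]; simp
  · rw [hP]; simp
  · rw [hP]; simp
  · rw [hP]; simp
  · rw [hP]; simp
  · intro v h3 h4 h5 h6 u hu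
    obtain ⟨x, hx⟩ := e.surjective ⟨u, hu⟩
    have h7 : u = x.1.1 • (e ((1, 0), (0, 0)) : V) + x.1.2 • (e ((0, 1), (0, 0)) : V) +
        (x.2.1 • (e ((0, 0), (1, 0)) : V) + x.2.2 • (e ((0, 0), (0, 1)) : V)) := by
      have h8 : x = x.1.1 • ((1, 0), (0, 0)) + x.1.2 • ((0, 1), (0, 0)) +
          (x.2.1 • ((0, 0), (1, 0)) + x.2.2 • ((0, 0), (0, 1))) := by
        obtain ⟨⟨a, b⟩, ⟨c, d⟩⟩ := x
        simp
      have h9 : (e x : V) = u := congrArg Subtype.val hx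
      rw [← h9]
      conv_lhs => rw [h8]
      simp only [map_add, map_smul]
      rfl
    rw [h7, polar_add_left, polar_add_left, polar_add_left, polar_smul_left, polar_smul_left, polar_smul_left,
      polar_smul_left, h3, h4, h5, h6]
    simp

/-- **an involution of rank four in `E Q` is fundamental** -/
theorem fund_of_finrank (hG : Good Q) {g : ↥(E Q)} (hg : g * g = 1) (hd : finrank F (Vm g) = 4) : Fund Q g := by
  classical
  cases nonempty_fintype F
  obtain ⟨e₁, f₁, e₂, f₂, h, m1, m2, m3, m4, hp⟩ := exists_four h2 (nondeg_Vm h2 hG.nondeg hg) hd (dc_Vm h2 hg hG)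
  exact ⟨e₁, f₁, e₂, f₂, h, mem_Vm.1 m1, mem_Vm.1 m2, mem_Vm.1 m3, mem_Vm.1 m4, fun v h3 h4 h5 h6 =>
    mem_Vp.1 ((mem_Vp_iff h2 hG.nondeg hg).2 (hp v h3 h4 h5 h6))⟩

end four

end Cfsg.Agent.H325.IF
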