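import Cfsg.Agent.H325.IF.Inv

/-!
# S5719, orthogonal groups, `q` odd: existence and conjugacy of involutions of `E Q` (helper325)

* `exists_sub` : subspaces of given dimension and class in a nondegenerate space;
* `exists_inv` : the involution of `E Q` with given `Vm g = U` (`U` nondegenerate, even dimension, square discriminant);
* `exists_inv_le` : involutions of `E Q` of rank `k` with `Vm g ≤ W`;
* `isConj_of_finrank` : involutions of `E Q` of the same rank are conjugate in `E Q`.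
-/

set_option autoImplicit false
set_option linter.unusedSectionVars false

namespace Cfsg.Agent.H325.IF

open QuadraticMap Module Cfsg.Agent.LieClassical.OrthCore Cfsg.Agent.LieClassical.OrthTrans
open Cfsg.Agent.H989.Gs.Gen Cfsg.Agent.H989.Fx
open Cfsg.Agent.H160.QSpin Cfsg.Agent.H160.QDisc

variable {F V W₁ : Type*} [Field F] [AddCommGroup V] [Module F V] [AddCommGroup W₁] [Module F W₁]
  {Q : QuadraticForm F V} [FiniteDimensional F V] [FiniteDimensional F W₁]

section split

variable [Fintype F] [DecidableEq F] (h2 : (2 : F) ≠ 0)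

include h2

/-- embedding of a smaller nondegenerate space -/
theorem exists_embed {Q₁ : QuadraticForm F W₁} (hQ : Nondeg Q) (hQ₁ : Nondeg Q₁)
    (hd : finrank F W₁ < finrank F V) : ∃ (m : ℕ) (Q₂ : QuadraticForm F (Fin (m + 1) → F))
      (e : (W₁ × (Fin (m + 1) → F)) ≃ₗ[F] V), Nondeg Q₂ ∧ IsIso (Q₁.prod Q₂) Q e := by
  obtain ⟨m, hm⟩ := Nat.exists_eq_add_of_lt hd
  have hdd : dc Q * dc Q₁ = 1 ∨ dc Q * dc Q₁ = -1 := by
    rcases dc_cases hQ with h | h <;> rcases dc_cases hQ₁ with h' | h' <;> rw [h, h'] <;> simp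
  obtain ⟨Q₂, hQ₂, hc⟩ := exists_form h2 hdd m
  obtain ⟨e, he⟩ := exists_iso h2 (nondeg_prod hQ₁ hQ₂) hQ (by rw [finrank_prod, finrank_fin_fun, hm]; omega) (by
    rw [dc_prod, hc]
    rcases dc_cases hQ₁ with h' | h' <;> rw [h'] <;> ring)
  exact ⟨m, Q₂, e, hQ₂, he⟩

/-- a nondegenerate space of dimension at least two represents every nonzero element -/
theorem exists_value (hQ : Nondeg Q) (hd : 2 ≤ finrank F V) {α : F} (hα : α ≠ 0) : ∃ v, Q v = α := by
  obtain ⟨m, Q₂, e, -, he⟩ := exists_embed h2 hQ (nondeg_oneF h2 hα) (by rw [finrank_self]; omega)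
  refine ⟨e (1, 0), ?_⟩
  rw [he, Qpr_apply, QuadraticMap.map_zero, oneF_apply]
  ring

omit h2 in
theorem nondeg_restrict {Q₁ : QuadraticForm F W₁} {U : Submodule F V} (e : W₁ ≃ₗ[F] U)
    (he : ∀ x, Q (e x : V) = Q₁ x) (hQ₁ : Nondeg Q₁) : Nondeg (Q.comp U.subtype) :=
  IsIso.nondeg (Q := Q₁) (Q' := Q.comp U.subtype) (e := e) (fun x => he x) hQ₁

/-- subspaces of given dimension and class -/
theorem exists_sub (hQ : Nondeg Q) {k : ℕ} (hk0 : 0 < k) (hk : k < finrank F V) {d : ℤ} (hd : d = 1 ∨ d = -1) :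
    ∃ U : Submodule F V, Nondeg (Q.comp U.subtype) ∧ finrank F U = k ∧ dc (Q.comp U.subtype) = d := by
  obtain ⟨n, rfl⟩ := Nat.exists_eq_succ_of_ne_zero hk0.ne'
  obtain ⟨Q₁, hQ₁, hc⟩ := exists_form h2 hd n
  obtain ⟨m, Q₂, e, -, he⟩ := exists_embed h2 hQ hQ₁ (by rw [finrank_fin_fun]; exact hk)
  let φ : (Fin (n + 1) → F) →ₗ[F] V := e.toLinearMap.comp (LinearMap.inl F _ _)
  have hφ : Function.Injective φ := e.injective.comp LinearMap.inl_injective
  let e' : (Fin (n + 1) → F) ≃ₗ[F] LinearMap.range φ := LinearEquiv.ofInjective φ hφ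
  have he' : ∀ x, Q (e' x : V) = Q₁ x := by
    intro x
    change Q (e (x, 0)) = _
    rw [he, Qpr_apply, QuadraticMap.map_zero, add_zero]
  refine ⟨LinearMap.range φ, nondeg_restrict e' he' hQ₁, ?_, ?_⟩
  · rw [← e'.finrank_eq, finrank_fin_fun]
  · rw [dc_iso (Q := Q₁) (Q' := Q.comp (LinearMap.range φ).subtype) (e := e') (fun x => he' x), hc]

/-- subspaces of given dimension and class in a nondegenerate subspace -/
theorem exists_sub_le {W : Submodule F V} (hW : Nondeg (Q.comp W.subtype)) {k : ℕ} (hk0 : 0 < k)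
    (hk : k < finrank F W) {d : ℤ} (hd : d = 1 ∨ d = -1) :
    ∃ U : Submodule F V, U ≤ W ∧ Nondeg (Q.comp U.subtype) ∧ finrank F U = k ∧ dc (Q.comp U.subtype) = d := by
  obtain ⟨U, h3, h4, h5⟩ := exists_sub h2 hW hk0 hk hd
  let e : U ≃ₗ[F] U.map W.subtype := Submodule.equivMapOfInjective W.subtype W.injective_subtype U
  have he : ∀ x, Q (e x : V) = (Q.comp W.subtype).comp U.subtype x := fun x => rfl
  refine ⟨U.map W.subtype, Submodule.map_subtype_le W U, nondeg_restrict e he h3, ?_, ?_⟩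
  · rw [← e.finrank_eq, h4]
  · rw [dc_iso (Q := (Q.comp W.subtype).comp U.subtype) (Q' := Q.comp (U.map W.subtype).subtype) (e := e)
      (fun x => he x), h5]

end split

/-! ### the orthogonal complement -/

section perp

/-- the orthogonal space -/
def Pp (Q : QuadraticForm F V) (U : Submodule F V) : Submodule F V := LinearMap.BilinForm.orthogonal (polarBilin Q) U

theorem mem_Pp {U : Submodule F V} {v : V} : v ∈ Pp Q U ↔ ∀ u ∈ U, polar Q u v = 0 := Iff.rfl

theorem isCompl_Pp {U : Submodule F V} (hU : Nondeg (Q.comp U.subtype)) : IsCompl U (Pp Q U) := by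
  refine LinearMap.BilinForm.isCompl_orthogonal_of_restrict_nondegenerate (isSymm_bilin Q).isRefl ?_
  exact nondeg_bilin hU

variable {U : Submodule F V} (hU : Nondeg (Q.comp U.subtype))

/-- the decomposition as an isometry -/
noncomputable def decU : (U × Pp Q U) ≃ₗ[F] V := Submodule.prodEquivOfIsCompl U (Pp Q U) (isCompl_Pp hU)

theorem decU_apply (x : U × Pp Q U) : decU hU x = (x.1 : V) + x.2 := by
  rw [decU, Submodule.coe_prodEquivOfIsCompl']

theorem isIso_decU : IsIso ((Q.comp U.subtype).prod (Q.comp (Pp Q U).subtype)) Q (decU hU) := by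
  intro x
  rw [decU_apply, Q_add, mem_Pp.1 x.2.2 x.1 x.1.2, add_zero]
  rfl

include hU in
theorem nondeg_Pp (hQ : Nondeg Q) : Nondeg (Q.comp (Pp Q U).subtype) := by
  have h3 := (isIso_decU hU).symm.nondeg hQ
  intro x hx
  have h4 := h3 (0, x) (fun y => by
    have h5 : polar ((Q.comp U.subtype).prod (Q.comp (Pp Q U).subtype)) (0, x) y =
        polar (Q.comp U.subtype) 0 y.1 + polar (Q.comp (Pp Q U).subtype) x y.2 := polar_pr _ _
    rw [h5, hx, polar_zero_left, add_zero])
  exact congrArg Prod.snd h4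

end perp

section exist

variable [Finite F] (h2 : (2 : F) ≠ 0)

include h2

/-- **the involution of `E Q` with given `Vm g`** -/
theorem exists_inv [Fintype F] [DecidableEq F] (hG : Good Q) {U : Submodule F V}
    (hU : Nondeg (Q.comp U.subtype)) (he : Even (finrank F U)) (hc : dc (Q.comp U.subtype) = 1) :
    ∃ g : ↥(E Q), g * g = 1 ∧ Vm g = U := by
  have hfin : Finite V := Module.finite_of_finite F
  have hfin2 : Finite (U × Pp Q U) := Finite.of_equiv V (decU hU).symm.toEquiv
  have hW := nondeg_Pp hU hG.nondeg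
  have hO : cj (decU hU) (pr (LinearEquiv.neg F) 1) ∈ O Q := cj_mem_O (isIso_decU hU)
    (pr_mem_O (neg_mem_O (Q.comp U.subtype)) (O (Q.comp (Pp Q U).subtype)).one_mem)
  have hE : cj (decU hU) (pr (LinearEquiv.neg F) 1) ∈ E Q := by
    rw [Cfsg.Agent.H380.Bs.mem_E_iff' hG h2 hO]
    constructor
    · rw [det_cj, det_pr, map_one, mul_one, det_neg_even he]
    · rw [spin_cj (isIso_decU hU) (pr_mem_O (neg_mem_O (Q.comp U.subtype))
        (O (Q.comp (Pp Q U).subtype)).one_mem), spin_pr h2 hU hW (neg_mem_O _)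
        (O (Q.comp (Pp Q U).subtype)).one_mem]
      have h6 : spin (Q.comp (Pp Q U).subtype) ⟨1, (O (Q.comp (Pp Q U).subtype)).one_mem⟩ = 1 := map_one _
      rw [h6, mul_one]
      apply Units.ext
      rw [spin_neg_one h2 hU he, hc]
      rfl
  have key : ∀ x : U × Pp Q U, ap (⟨_, hE⟩ : ↥(E Q)) ((x.1 : V) + x.2) = -(x.1 : V) + x.2 := by
    intro x
    have h3 : ap (⟨_, hE⟩ : ↥(E Q)) (decU hU x) = decU hU (pr (LinearEquiv.neg F) 1 x) := cj_apply' _ _ _
    rw [decU_apply, decU_apply] at h3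
    exact h3
  refine ⟨⟨_, hE⟩, ?_, ?_⟩
  · apply ext_ap
    intro v
    obtain ⟨x, rfl⟩ := (decU hU).surjective v
    rw [ap_mul, ap_one, decU_apply, key]
    have h3 := key (-x.1, x.2)
    rw [Submodule.coe_neg, neg_neg] at h3
    exact h3
  · ext v
    rw [mem_Vm]
    obtain ⟨x, rfl⟩ := (decU hU).surjective v
    rw [decU_apply, key, neg_add, add_right_inj]
    constructor
    · intro h
      have h3 : (2 : F) • (x.2 : V) = 0 := by
        rw [two_smul]
        nth_rewrite 1 [h]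
        exact neg_add_cancel _
      rw [(smul_eq_zero.1 h3).resolve_left h2, add_zero]
      exact x.1.2
    · intro h
      have h3 : (x.2 : V) ∈ U := by
        have := U.sub_mem h x.1.2
        rwa [add_sub_cancel_left] at this
      have h4 : (x.2 : V) = 0 := Submodule.disjoint_def.1 (isCompl_Pp hU).disjoint _ h3 x.2.2
      rw [h4, neg_zero]

/-- **involutions of `E Q` of rank `k` with `Vm g` in a given nondegenerate space** -/
theorem exists_inv_le (hG : Good Q) {W : Submodule F V} (hW : Nondeg (Q.comp W.subtype)) {k : ℕ} (hk0 : 0 < k)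
    (he : Even k) (hk : k < finrank F W) :
    ∃ g : ↥(E Q), g * g = 1 ∧ Vm g ≤ W ∧ finrank F (Vm g) = k := by
  classical
  cases nonempty_fintype F
  obtain ⟨U, h3, h4, h5, h6⟩ := exists_sub_le h2 hW hk0 hk (d := 1) (Or.inl rfl)
  obtain ⟨g, hg, hgU⟩ := exists_inv h2 hG h4 (by rw [h5]; exact he) h6
  exact ⟨g, hg, by rw [hgU]; exact h3, by rw [hgU]; exact h5⟩

/-- **Small involutions.** An involution `z` of `E Q` with `rank (z - 1) ≤ 4` has rank two or is fundamental. -/
theorem two_or_fund (hG : Good Q) {z : ↥(E Q)} (hz : z * z = 1) (hz1 : z ≠ 1) (hd : finrank F (Vm z) ≤ 4) :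
    finrank F (Vm z) = 2 ∨ Fund Q z := by
  have he := even_Vm h2 hz hG
  have h0 : finrank F (Vm z) ≠ 0 := by
    intro h
    apply hz1
    rw [Submodule.finrank_eq_zero] at h
    have h3 := (isCompl h2 hz).codisjoint.eq_top
    rw [h, bot_sup_eq] at h3
    apply ext_ap
    intro v
    rw [ap_one]
    exact mem_Vp.1 (h3 ▸ Submodule.mem_top)
  have h4 : finrank F (Vm z) = 2 ∨ finrank F (Vm z) = 4 := by
    obtain ⟨k, hk⟩ := he
    omega
  exact h4.imp id (fund_of_finrank h2 hG hz)

omit h2 in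
theorem finrank_Vm_le {z : ↥(E Q)} (hz : z * z = 1) {k : ℕ} {W : Submodule F V} (hW : finrank F W ≤ k)
    (h : ∀ v, ap z v - v ∈ W) (h2 : (2 : F) ≠ 0) : finrank F (Vm z) ≤ k := by
  refine le_trans (Submodule.finrank_mono fun v hv => ?_) hW
  have h3 := h ((-(2 : F)⁻¹) • v)
  rw [ap_smul, mem_Vm.1 hv, smul_neg, neg_smul, neg_neg, sub_neg_eq_add, ← add_smul] at h3
  have h4 : (2 : F)⁻¹ + (2 : F)⁻¹ = 1 := by rw [← two_mul, mul_inv_cancel₀ h2]
  rwa [h4, one_smul] at h3

/-- the form used by helper170 -/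
theorem two_or_fund' (hG : Good Q) {z : ↥(E Q)} (hz : z * z = 1) (hz1 : z ≠ 1)
    (hd : ∃ W : Submodule F V, finrank F W ≤ 4 ∧ ∀ v, ap z v - v ∈ W) : finrank F (Vm z) = 2 ∨ Fund Q z := by
  obtain ⟨W, hW, h⟩ := hd
  exact two_or_fund h2 hG hz hz1 (finrank_Vm_le hz hW h h2)

end exist

end Cfsg.Agent.H325.IF
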