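import Cfsg.Agent.H325.IF.Inv2

/-!
# S5719, orthogonal groups, `q` odd: conjugacy of involutions of `E Q`, lifts (helper325)

* `isConj_of_finrank` : involutions of `E Q` of the same rank are conjugate in `E Q`;
* `exists_lift` : an involution of `A ≤ T`, `π : E Q →* T` with kernel `± 1`, lifts to `g`, `g * g = 1` or `-1`;
* `cases_eight`, `cases_ten` : the ranks in dimension `8`, `10`.
-/

set_option autoImplicit false
set_option linter.unusedSectionVars false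

namespace Cfsg.Agent.H325.IF

open QuadraticMap Module Cfsg.Agent.LieClassical.OrthCore Cfsg.Agent.LieClassical.OrthTrans
open Cfsg.Agent.H989.Gs.Gen Cfsg.Agent.H989.Fx
open Cfsg.Agent.H160.QSpin Cfsg.Agent.H160.QDisc

variable {F V : Type*} [Field F] [AddCommGroup V] [Module F V] {Q : QuadraticForm F V}

/-- reflections in eigenvectors commute with `s` -/
theorem refl_eig {s : V ≃ₗ[F] V} (hs : s ∈ O Q) {τ : F} (hτ : τ * τ = 1) {a : V} (ha : Q a ≠ 0)
    (h : s a = τ • a) (v : V) : s (refl Q a ha v) = refl Q a ha (s v) := by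
  have h3 : polar Q a (s v) = τ * polar Q a v := by
    have h4 := polar_map hs a v
    rw [h, polar_smul_left, smul_eq_mul] at h4
    calc polar Q a (s v) = τ * τ * polar Q a (s v) := by rw [hτ, one_mul]
      _ = τ * (τ * polar Q a (s v)) := by ring
      _ = τ * polar Q a v := by rw [h4]
  rw [refl_apply, refl_apply, map_sub, map_smul, h, h3, smul_smul]
  congr 2
  ring

section conj

variable [Finite F] [FiniteDimensional F V] (h2 : (2 : F) ≠ 0)

include h2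

/-- isometries of all classes commuting with an involution -/
theorem exists_comm [Fintype F] [DecidableEq F] [Finite V] (hG : Good Q) {g : ↥(E Q)} (hg : g * g = 1) {h : V ≃ₗ[F] V} (hh : h ∈ O Q) :
    ∃ c : V ≃ₗ[F] V, (∀ v, c (ap g v) = ap g (c v)) ∧ c * h ∈ E Q := by
  obtain ⟨X, τ, hτ, hX, hXd, hXe⟩ : ∃ (X : Submodule F V) (τ : F), τ * τ = 1 ∧ Nondeg (Q.comp X.subtype) ∧
      2 ≤ finrank F X ∧ ∀ a ∈ X, ap g a = τ • a := by
    have h3 := Submodule.finrank_add_eq_of_isCompl (isCompl h2 hg)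
    have h4 := hG.dim
    rcases Nat.lt_or_ge (finrank F (Vm g)) 2 with h5 | h5
    · exact ⟨Vp g, 1, by ring, nondeg_Vp h2 hG.nondeg hg, by omega, fun a ha => by rw [one_smul]; exact mem_Vp.1 ha⟩
    · exact ⟨Vm g, -1, by ring, nondeg_Vm h2 hG.nondeg hg, h5, fun a ha => by
        rw [neg_one_smul]; exact mem_Vm.1 ha⟩
  obtain ⟨α, hα, hqα⟩ := exists_qc (F := F) h2 (d := 1) (Or.inl rfl)
  obtain ⟨β, hβ, hqβ⟩ := exists_qc (F := F) h2 (d := -1) (Or.inr rfl)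
  obtain ⟨a, ha⟩ := exists_value h2 hX hXd hα
  obtain ⟨b, hb⟩ := exists_value h2 hX hXd hβ
  have ha' : Q (a : V) = α := ha
  have hb' : Q (b : V) = β := hb
  have ha0 : Q (a : V) ≠ 0 := by rw [ha']; exact hα
  have hb0 : Q (b : V) ≠ 0 := by rw [hb']; exact hβ
  have ca : ∀ v, refl Q (a : V) ha0 (ap g v) = ap g (refl Q (a : V) ha0 v) := fun v =>
    (refl_eig (E_le_O g.2) hτ ha0 (hXe a a.2) v).symm
  have cb : ∀ v, refl Q (b : V) hb0 (ap g v) = ap g (refl Q (b : V) hb0 v) := fun v =>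
    (refl_eig (E_le_O g.2) hτ hb0 (hXe b b.2) v).symm
  have sa : spin Q ⟨refl Q (a : V) ha0, refl_mem_O ha0⟩ = -1 := by
    apply Units.ext
    rw [spin_refl_int h2, ha', hqα]
    rfl
  have sb : spin Q ⟨refl Q (b : V) hb0, refl_mem_O hb0⟩ = 1 := by
    apply Units.ext
    rw [spin_refl_int h2, hb', hqβ]
    rfl
  have key : ∀ (c : V ≃ₗ[F] V) (hc : c ∈ O Q), LinearEquiv.det c * LinearEquiv.det h = 1 →
      spin Q ⟨c, hc⟩ * spin Q ⟨h, hh⟩ = 1 → c * h ∈ E Q := by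
    intro c hc k1 k2
    rw [Cfsg.Agent.H380.Bs.mem_E_iff' hG h2 ((O Q).mul_mem hc hh)]
    refine ⟨by rw [map_mul]; exact k1, ?_⟩
    have k3 : (⟨c * h, (O Q).mul_mem hc hh⟩ : O Q) = ⟨c, hc⟩ * ⟨h, hh⟩ := rfl
    rw [k3, map_mul]
    exact k2
  rcases Cfsg.Agent.H380.Bs.det_eq_or hG.nondeg hh with hd | hd <;>
    rcases Int.units_eq_one_or (spin Q ⟨h, hh⟩) with hs | hs
  · refine ⟨1, fun v => rfl, key 1 (O Q).one_mem ?_ ?_⟩
    · rw [hd, map_one, one_mul]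
    · rw [hs, mul_one]
      exact map_one (spin Q)
  · refine ⟨refl Q (a : V) ha0 * refl Q (b : V) hb0, fun v => ?_,
      key _ ((O Q).mul_mem (refl_mem_O ha0) (refl_mem_O hb0)) ?_ ?_⟩
    · change refl Q (a : V) ha0 (refl Q (b : V) hb0 (ap g v)) = ap g (refl Q (a : V) ha0 (refl Q (b : V) hb0 v))
      rw [cb, ca]
    · rw [hd, map_mul, det_refl, det_refl]
      simp
    · have k3 : (⟨refl Q (a : V) ha0 * refl Q (b : V) hb0, (O Q).mul_mem (refl_mem_O ha0) (refl_mem_O hb0)⟩ : O Q) =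
        ⟨refl Q (a : V) ha0, refl_mem_O ha0⟩ * ⟨refl Q (b : V) hb0, refl_mem_O hb0⟩ := rfl
      rw [k3, map_mul, sa, sb, hs]
      simp
  · refine ⟨refl Q (b : V) hb0, cb, key _ (refl_mem_O hb0) ?_ ?_⟩
    · rw [hd, det_refl]
      simp
    · rw [sb, hs, one_mul]
  · refine ⟨refl Q (a : V) ha0, ca, key _ (refl_mem_O ha0) ?_ ?_⟩
    · rw [hd, det_refl]
      simp
    · rw [sa, hs]
      simp

/-- **involutions of the same rank are conjugate in `E Q`** -/
theorem isConj_of_finrank (hG : Good Q) {g g' : ↥(E Q)} (hg : g * g = 1) (hg' : g' * g' = 1)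
    (hd : finrank F (Vm g) = finrank F (Vm g')) : IsConj g g' := by
  classical
  cases nonempty_fintype F
  have hfin : Finite V := Module.finite_of_finite F
  have d1 := Submodule.finrank_add_eq_of_isCompl (isCompl h2 hg)
  have d2 := Submodule.finrank_add_eq_of_isCompl (isCompl h2 hg')
  obtain ⟨e1, he1⟩ := exists_iso h2 (nondeg_Vm h2 hG.nondeg hg) (nondeg_Vm h2 hG.nondeg hg') hd
    (by rw [dc_Vm h2 hg hG, dc_Vm h2 hg' hG])
  obtain ⟨e2, he2⟩ := exists_iso h2 (nondeg_Vp h2 hG.nondeg hg) (nondeg_Vp h2 hG.nondeg hg') (by omega)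
    (by rw [dc_Vp h2 hg hG, dc_Vp h2 hg' hG])
  let h : V ≃ₗ[F] V := (dec h2 hg).symm.trans ((e1.prodCongr e2).trans (dec h2 hg'))
  have hh' : ∀ x : Vm g × Vp g, h ((x.1 : V) + x.2) = (e1 x.1 : V) + e2 x.2 := by
    intro x
    have h3 : h (dec h2 hg x) = dec h2 hg' (e1 x.1, e2 x.2) := by
      change dec h2 hg' ((e1.prodCongr e2) ((dec h2 hg).symm (dec h2 hg x))) = _
      rw [LinearEquiv.symm_apply_apply]
      rfl
    rw [dec_apply, dec_apply] at h3
    exact h3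
  have hO : h ∈ O Q := by
    intro v
    obtain ⟨x, rfl⟩ := (dec h2 hg).surjective v
    rw [dec_apply, hh', Q_add, Q_add, polar_Vm_Vp h2 x.1.2 x.2.2, polar_Vm_Vp h2 (e1 x.1).2 (e2 x.2).2]
    have k1 : Q (e1 x.1 : V) = Q (x.1 : V) := he1 x.1
    have k2 : Q (e2 x.2 : V) = Q (x.2 : V) := he2 x.2
    rw [k1, k2]
  have hc : ∀ v, h (ap g v) = ap g' (h v) := by
    intro v
    obtain ⟨x, rfl⟩ := (dec h2 hg).surjective v
    rw [dec_apply, ap_add, mem_Vm.1 x.1.2, mem_Vp.1 x.2.2, hh', ap_add, mem_Vm.1 (e1 x.1).2, mem_Vp.1 (e2 x.2).2]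
    have h3 := hh' (-x.1, x.2)
    rw [Submodule.coe_neg, map_neg, Submodule.coe_neg] at h3
    exact h3
  obtain ⟨c, hc1, hc2⟩ := exists_comm h2 hG hg' hO
  rw [isConj_iff]
  refine ⟨⟨c * h, hc2⟩, ?_⟩
  rw [mul_inv_eq_iff_eq_mul]
  apply ext_ap
  intro v
  rw [ap_mul, ap_mul]
  change c (h (ap g v)) = ap g' (c (h v))
  rw [hc, hc1]

end conj

/-! ### lifts -/

section lift

variable {T : Type*} [Group T] (π : ↥(E Q) →* T) (hπ : Function.Surjective π)
  (hker : ∀ g, π g = 1 ↔ g = 1 ∨ ∀ v, ap g v = -v)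

include hπ hker

/-- **lifts of involutions** -/
theorem exists_lift [Finite T] {A : Subgroup T} (hev : Even (Nat.card A)) :
    ∃ g : ↥(E Q), π g ∈ A ∧ π g ≠ 1 ∧ π (g * g) = 1 ∧ (g * g = 1 ∨ ∀ v, ap g (ap g v) = -v) := by
  obtain ⟨a, ha⟩ := exists_prime_orderOf_dvd_card' 2 hev.two_dvd
  obtain ⟨g, hg⟩ := hπ (a : T)
  have h1 : (a : T) ≠ 1 := by
    intro h
    have h3 : a = 1 := Subtype.ext h
    rw [h3, orderOf_one] at ha
    omega
  have h3 : (a : T) * a = 1 := by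
    have h4 := pow_orderOf_eq_one a
    rw [ha, pow_two] at h4
    exact congrArg Subtype.val h4
  have h4 : π (g * g) = 1 := by rw [map_mul, hg, h3]
  refine ⟨g, by rw [hg]; exact a.2, by rw [hg]; exact h1, h4, ?_⟩
  rcases (hker _).1 h4 with h5 | h5
  · exact Or.inl h5
  · exact Or.inr fun v => by rw [← ap_mul]; exact h5 v

omit hπ in
/-- the rank of the lift of an involution -/
theorem finrank_lift [Finite F] [FiniteDimensional F V] (h2 : (2 : F) ≠ 0) (hG : Good Q) {g : ↥(E Q)}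
    (hg : g * g = 1) (h1 : π g ≠ 1) :
    Even (finrank F (Vm g)) ∧ 0 < finrank F (Vm g) ∧ finrank F (Vm g) < finrank F V := by
  refine ⟨even_Vm h2 hg hG, ?_, ?_⟩
  · rw [Nat.pos_iff_ne_zero]
    intro h
    apply h1
    rw [hker]
    left
    rw [Submodule.finrank_eq_zero] at h
    have h3 := (isCompl h2 hg).codisjoint.eq_top
    rw [h, bot_sup_eq] at h3
    apply ext_ap
    intro v
    rw [ap_one]
    exact mem_Vp.1 (h3 ▸ Submodule.mem_top)
  · rw [lt_iff_le_and_ne]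
    refine ⟨Submodule.finrank_le _, fun h => h1 ?_⟩
    rw [hker]
    right
    intro v
    have h3 := Submodule.eq_top_of_finrank_eq h
    exact mem_Vm.1 (h3 ▸ Submodule.mem_top)

/-- **dimension 8** -/
theorem cases_eight [Finite T] [Finite F] [FiniteDimensional F V] (h2 : (2 : F) ≠ 0) (hG : Good Q)
    (hN : finrank F V = 8) {A : Subgroup T} (hev : Even (Nat.card A)) :
    ∃ g : ↥(E Q), π g ∈ A ∧ π g ≠ 1 ∧ π (g * g) = 1 ∧ ((g * g = 1 ∧ finrank F (Vm g) = 2) ∨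
      (g * g = 1 ∧ finrank F (Vm g) = 6) ∨ Fund Q g ∨ ∀ v, ap g (ap g v) = -v) := by
  obtain ⟨g, h3, h4, h5, h6⟩ := exists_lift π hπ hker hev
  refine ⟨g, h3, h4, h5, ?_⟩
  rcases h6 with h6 | h6
  · obtain ⟨⟨k, hk⟩, k2, k3⟩ := finrank_lift π hker h2 hG h6 h4
    rw [hN] at k3
    have h7 : finrank F (Vm g) = 2 ∨ finrank F (Vm g) = 6 ∨ finrank F (Vm g) = 4 := by omega
    rcases h7 with h7 | h7 | h7
    · exact Or.inl ⟨h6, h7⟩
    · exact Or.inr (Or.inl ⟨h6, h7⟩)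
    · exact Or.inr (Or.inr (Or.inl (fund_of_finrank h2 hG h6 h7)))
  · exact Or.inr (Or.inr (Or.inr h6))

/-- **dimension 10** -/
theorem cases_ten [Finite T] [Finite F] [FiniteDimensional F V] (h2 : (2 : F) ≠ 0) (hG : Good Q)
    (hN : finrank F V = 10) {A : Subgroup T} (hev : Even (Nat.card A)) :
    ∃ g : ↥(E Q), π g ∈ A ∧ π g ≠ 1 ∧ π (g * g) = 1 ∧ ((g * g = 1 ∧ finrank F (Vm g) = 2) ∨
      (g * g = 1 ∧ finrank F (Vm g) = 8) ∨ (g * g = 1 ∧ finrank F (Vm g) = 6) ∨ Fund Q g ∨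
      ∀ v, ap g (ap g v) = -v) := by
  obtain ⟨g, h3, h4, h5, h6⟩ := exists_lift π hπ hker hev
  refine ⟨g, h3, h4, h5, ?_⟩
  rcases h6 with h6 | h6
  · obtain ⟨⟨k, hk⟩, k2, k3⟩ := finrank_lift π hker h2 hG h6 h4
    rw [hN] at k3
    have h7 : finrank F (Vm g) = 2 ∨ finrank F (Vm g) = 8 ∨ finrank F (Vm g) = 6 ∨ finrank F (Vm g) = 4 := by
      omega
    rcases h7 with h7 | h7 | h7 | h7
    · exact Or.inl ⟨h6, h7⟩
    · exact Or.inr (Or.inl ⟨h6, h7⟩)
    · exact Or.inr (Or.inr (Or.inl ⟨h6, h7⟩))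
    · exact Or.inr (Or.inr (Or.inr (Or.inl (fund_of_finrank h2 hG h6 h7))))
  · exact Or.inr (Or.inr (Or.inr (Or.inr h6)))

end lift

end Cfsg.Agent.H325.IF
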